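import Mathlib

/-!
The group with generators `x`, `y` and relations `x^3 = y^5 = (x*y)^2 = 1` has at most 60 elements.
-/

set_option autoImplicit false

namespace Cfsg.Agent.H78

section Icosahedral

variable {P : Type*} [Group P]

/-- The orbit of a point fixed by `y` under a group with the icosahedral relations has at most
twelve points. -/
theorem icosahedral_orbit {X : Type*} [MulAction P X] {x y : P} (hx : x ^ 3 = 1) (hy : y ^ 5 = 1)
    (hxy : (x * y) ^ 2 = 1) (q0 : X) (ey0 : y • q0 = q0) :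
    ∃ S : Finset X, S.card ≤ 12 ∧ q0 ∈ S ∧ ∀ z ∈ S, x • z ∈ S ∧ y • z ∈ S := by
  classical
  have R0 : ∀ z : X, x • x • x • z = z := fun z => by
    rw [← mul_smul, ← mul_smul, show x * x * x = x ^ 3 by simp [pow_succ, mul_assoc], hx, one_smul]
  have R1 : ∀ z : X, y • y • y • y • y • z = z := fun z => by
    rw [← mul_smul, ← mul_smul, ← mul_smul, ← mul_smul,
      show y * y * y * y * y = y ^ 5 by simp [pow_succ, mul_assoc], hy, one_smul]
  have hyx : (y * x) ^ 2 = 1 := by
    rw [show (y * x) ^ 2 = x⁻¹ * (x * y) ^ 2 * x by simp [pow_two, mul_assoc], hxy]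
    group
  have R2 : ∀ z : X, y • x • y • x • z = z := fun z => by
    rw [← mul_smul, ← mul_smul, ← mul_smul, show y * x * y * x = (y * x) ^ 2 by
      simp [pow_two, mul_assoc], hyx, one_smul]
  have R3 : ∀ z : X, x • y • x • y • z = z := fun z => by
    rw [← mul_smul, ← mul_smul, ← mul_smul, show x * y * x * y = (x * y) ^ 2 by
      simp [pow_two, mul_assoc], hxy, one_smul]
  obtain ⟨q1, ex0⟩ : ∃ z, x • q0 = z := ⟨_, rfl⟩
  obtain ⟨q2, ex1⟩ : ∃ z, x • q1 = z := ⟨_, rfl⟩
  have ex2 : x • q2 = q0 := by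
    have h := R0 q0
    rw [ex0] at h
    rw [ex1] at h
    exact h
  have ey1 : y • q1 = q2 := by
    have h := R2 q0
    rw [ex0] at h
    replace h := MulAction.injective _ (h.trans ey0.symm)
    replace h := MulAction.injective _ (h.trans ex2.symm)
    exact h
  obtain ⟨q3, ey2⟩ : ∃ z, y • q2 = z := ⟨_, rfl⟩
  obtain ⟨q4, ex3⟩ : ∃ z, x • q3 = z := ⟨_, rfl⟩
  have ey4 : y • q4 = q1 := by
    have h := R2 q1
    rw [ex1] at h
    rw [ey2] at h
    rw [ex3] at h
    exact h
  obtain ⟨q5, ey3⟩ : ∃ z, y • q3 = z := ⟨_, rfl⟩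
  have ey5 : y • q5 = q4 := by
    have h := R1 q1
    rw [ey1] at h
    rw [ey2] at h
    rw [ey3] at h
    replace h := MulAction.injective _ (h.trans ey4.symm)
    exact h
  obtain ⟨q6, ex4⟩ : ∃ z, x • q4 = z := ⟨_, rfl⟩
  have ex6 : x • q6 = q3 := by
    have h := R0 q3
    rw [ex3] at h
    rw [ex4] at h
    exact h
  obtain ⟨q7, ex5⟩ : ∃ z, x • q5 = z := ⟨_, rfl⟩
  have ey7 : y • q7 = q6 := by
    have h := R3 q3
    rw [ey3] at h
    rw [ex5] at h
    replace h := MulAction.injective _ (h.trans ex6.symm)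
    exact h
  obtain ⟨q8, ey6⟩ : ∃ z, y • q6 = z := ⟨_, rfl⟩
  have ex8 : x • q8 = q5 := by
    have h := R2 q4
    rw [ex4] at h
    rw [ey6] at h
    replace h := MulAction.injective _ (h.trans ey5.symm)
    exact h
  have ex7 : x • q7 = q8 := by
    have h := R0 q5
    rw [ex5] at h
    replace h := MulAction.injective _ (h.trans ex8.symm)
    exact h
  obtain ⟨q9, ey8⟩ : ∃ z, y • q8 = z := ⟨_, rfl⟩
  obtain ⟨q10, ex9⟩ : ∃ z, x • q9 = z := ⟨_, rfl⟩
  have ey10 : y • q10 = q7 := by
    have h := R2 q7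
    rw [ex7] at h
    rw [ey8] at h
    rw [ex9] at h
    exact h
  have ey9 : y • q9 = q10 := by
    have h := R1 q6
    rw [ey6] at h
    rw [ey8] at h
    replace h := MulAction.injective _ (h.trans ey7.symm)
    replace h := MulAction.injective _ (h.trans ey10.symm)
    exact h
  obtain ⟨q11, ex10⟩ : ∃ z, x • q10 = z := ⟨_, rfl⟩
  have ex11 : x • q11 = q9 := by
    have h := R0 q9
    rw [ex9] at h
    rw [ex10] at h
    exact h
  have ey11 : y • q11 = q11 := by
    have h := R3 q9
    rw [ey9] at h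
    rw [ex10] at h
    replace h := MulAction.injective _ (h.trans ex11.symm)
    exact h
  refine ⟨{q0, q1, q2, q3, q4, q5, q6, q7, q8, q9, q10, q11}, by
    repeat' (refine (Finset.card_insert_le _ _).trans (Nat.succ_le_succ ?_))
    simp, by simp, ?_⟩
  intro z hz
  simp only [Finset.mem_insert, Finset.mem_singleton] at hz ⊢
  rcases hz with rfl | rfl | rfl | rfl | rfl | rfl | rfl | rfl | rfl | rfl | rfl | rfl
  · exact ⟨by simp [ex0], by simp [ey0]⟩
  · exact ⟨by simp [ex1], by simp [ey1]⟩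
  · exact ⟨by simp [ex2], by simp [ey2]⟩
  · exact ⟨by simp [ex3], by simp [ey3]⟩
  · exact ⟨by simp [ex4], by simp [ey4]⟩
  · exact ⟨by simp [ex5], by simp [ey5]⟩
  · exact ⟨by simp [ex6], by simp [ey6]⟩
  · exact ⟨by simp [ex7], by simp [ey7]⟩
  · exact ⟨by simp [ex8], by simp [ey8]⟩
  · exact ⟨by simp [ex9], by simp [ey9]⟩
  · exact ⟨by simp [ex10], by simp [ey10]⟩
  · exact ⟨by simp [ex11], by simp [ey11]⟩

/-- A group generated by elements satisfying the icosahedral relations has at most 60 elements. -/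
theorem icosahedral_card_le {x y : P} (hx : x ^ 3 = 1) (hy : y ^ 5 = 1) (hxy : (x * y) ^ 2 = 1)
    (hgen : Subgroup.closure ({x, y} : Set P) = ⊤) : Finite P ∧ Nat.card P ≤ 60 := by
  classical
  set H := Subgroup.zpowers y with hH
  have hy0 : y • ((1 : P) : P ⧸ H) = ((1 : P) : P ⧸ H) := by
    rw [MulAction.Quotient.smul_coe, QuotientGroup.eq]
    simp [H]
  obtain ⟨S, hS, h0, hinv⟩ := icosahedral_orbit hx hy hxy _ hy0
  have hall : ∀ g : P, ∀ z ∈ S, g • z ∈ S := by
    intro g
    have hg : g ∈ Subgroup.closure ({x, y} : Set P) := hgen ▸ Subgroup.mem_top g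
    induction hg using Subgroup.closure_induction with
    | mem a ha =>
      intro z hz
      rcases ha with rfl | rfl
      · exact (hinv z hz).1
      · exact (hinv z hz).2
    | one => intro z hz; rwa [one_smul]
    | mul a b _ _ iha ihb => intro z hz; rw [mul_smul]; exact iha _ (ihb z hz)
    | inv a _ iha =>
      intro z hz
      obtain ⟨w, hw, hwz⟩ := Finset.surj_on_of_inj_on_of_card_le (s := S) (t := S)
        (fun w _ => a • w) (fun w hw => iha w hw)
        (fun w₁ w₂ _ _ h => MulAction.injective a h) le_rfl z hz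
      rw [hwz, inv_smul_smul]
      exact hw
  have huniv : ∀ q : P ⧸ H, q ∈ S := by
    intro q
    induction q using QuotientGroup.induction_on with
    | H g =>
      have h := hall g _ h0
      rwa [MulAction.Quotient.smul_coe, smul_eq_mul, mul_one] at h
  have hfq : Finite (P ⧸ H) :=
    Finite.of_injective (fun q : P ⧸ H => (⟨q, huniv q⟩ : S)) fun a b h => by simpa using h
  have hq : Nat.card (P ⧸ H) ≤ 12 :=
    (Nat.card_le_card_of_injective (fun q : P ⧸ H => (⟨q, huniv q⟩ : S))
      fun a b h => by simpa using h).trans (by simpa using hS)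
  have hH5 : Nat.card H ≤ 5 := by
    rw [hH, Nat.card_zpowers]
    exact orderOf_le_of_pow_eq_one (by norm_num) hy
  have hord : 0 < Nat.card H := by
    rw [hH, Nat.card_zpowers]
    exact orderOf_pos_iff.mpr (isOfFinOrder_iff_pow_eq_one.mpr ⟨5, by norm_num, hy⟩)
  have hfH : Finite H := Nat.finite_of_card_ne_zero hord.ne'
  refine ⟨Finite.of_subgroup_quotient H, ?_⟩
  rw [Subgroup.card_eq_card_quotient_mul_card_subgroup H]
  calc _ ≤ 12 * 5 := Nat.mul_le_mul hq hH5
    _ = 60 := rfl

end Icosahedral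

end Cfsg.Agent.H78
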