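import Cfsg.Agent.H7.SzPartition
import Cfsg.Agent.H7.SzLie
import Cfsg.Agent.H21.FrobeniusStructure

/-!
Transitive actions of the Suzuki groups in which non-identity elements fix at most two points.
-/

open MulAction Cfsg

namespace Cfsg.Agent.H78

variable {F : Type*} [Field F] {m : ℕ}

open Cfsg.Agent.H7

section

variable {S Ω : Type*} [Group S] [MulAction S Ω]

/-- Commuting elements permute fixed points. -/
theorem smul_fixed_of_commute {g y : S} (h : Commute y g) {x : Ω} (hx : g • x = x) :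
    g • (y • x) = y • x := by rw [← mul_smul, ← h.eq, mul_smul, hx]

/-- An element permuting a set with at most two points has square fixing it pointwise. -/
theorem sq_smul_eq [Finite Ω] {D : Set Ω} (hD : D.ncard ≤ 2) {y : S}
    (hy : ∀ x ∈ D, y • x ∈ D) {x : Ω} (hx : x ∈ D) : y ^ 2 • x = x := by
  rw [pow_two, mul_smul]
  by_cases h : y • x = x
  · rw [h, h]
  · have h2 : ({x, y • x} : Set Ω) = D := Set.eq_of_subset_of_ncard_le
      (Set.insert_subset hx (Set.singleton_subset_iff.2 (hy x hx)))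
      (by rw [Set.ncard_pair (Ne.symm h)]; exact hD)
    have h3 := hy _ (hy x hx)
    rw [← h2, Set.mem_insert_iff, Set.mem_singleton_iff] at h3
    exact h3.resolve_right fun e => h (MulAction.injective y e)

/-- An element of odd order permuting a set of at most two points fixes it pointwise. -/
theorem odd_smul_eq [Finite Ω] {D : Set Ω} (hD : D.ncard ≤ 2) {y : S} (hodd : Odd (orderOf y))
    (hy : ∀ x ∈ D, y • x ∈ D) {x : Ω} (hx : x ∈ D) : y • x = x := by
  obtain ⟨k, hk⟩ := hodd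
  have h1 : ∀ j : ℕ, (y ^ 2) ^ j • x = x := by
    intro j
    induction j with
    | zero => rw [pow_zero, one_smul]
    | succ j ih => rw [pow_succ, mul_smul, sq_smul_eq hD hy hx, ih]
  calc y • x = (y * (y ^ 2) ^ k) • x := by rw [mul_smul, h1]
    _ = x := by rw [← pow_mul, ← pow_succ', ← hk, pow_orderOf_eq_one, one_smul]

end

section

variable {Ω : Type*} [MulAction (Sz F m) Ω] [Finite Ω]

/-- Stabilisers containing an involution of `Q` are the Borel subgroup. -/
theorem stabilizer_eq_B (H : SzHyp F m)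
    (hfix : ∀ g : Sz F m, g ≠ 1 → Nat.card (MulAction.fixedBy Ω g) ≤ 2)
    {a : Ω} (hK : MulAction.stabilizer (Sz F m) a ≠ ⊤) {z : Sz F m}
    (hz : z ∈ MulAction.stabilizer (Sz F m) a) (hz2 : orderOf z = 2) (hzQ : z ∈ H.Q) :
    MulAction.stabilizer (Sz F m) a = H.B := by
  haveI := H.finite_Sz
  haveI := H.fin
  have hz1 : z ≠ 1 := fun h => by rw [h, orderOf_one] at hz2; omega
  obtain ⟨b, hb, rfl⟩ : ∃ b, b ≠ 0 ∧ z = H.us 0 b := by
    obtain ⟨c, d, rfl⟩ := hzQ
    rcases eq_or_ne c 0 with rfl | hc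
    · refine ⟨d, fun hd => hz1 (by rw [hd, H.us_zero]), rfl⟩
    · rw [H.orderOf_us hc] at hz2; omega
  have hD : ∀ g : Sz F m, g ≠ 1 → (MulAction.fixedBy Ω g).ncard ≤ 2 := fun g hg => by
    rw [← Nat.card_coe_set_eq]; exact hfix g hg
  have hne : ∀ c : F, c ≠ 0 → H.us 0 c ≠ 1 := fun c hc h => hc (by
    rw [← H.us_zero, H.us_inj] at h; exact h.2)
  have hperm : ∀ u ∈ H.Q, ∀ c : F, c ≠ 0 → ∀ x ∈ MulAction.fixedBy Ω (H.us 0 c),
      u • x ∈ MulAction.fixedBy Ω (H.us 0 c) := by
    intro u hu c hc x hx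
    rw [← H.centralizer_us_zero hc] at hu
    exact smul_fixed_of_commute (Subgroup.mem_centralizer_singleton_iff.1 hu) hx
  -- every `us 0 c` is a square in `Q`
  have hsq : ∀ c : F, ∃ u ∈ H.Q, H.us 0 c = u ^ 2 := by
    intro c
    rcases eq_or_ne c 0 with rfl | hc
    · exact ⟨1, one_mem _, by rw [one_pow, H.us_zero]⟩
    · obtain ⟨k, hk⟩ := H.normBij_surjective (Units.mk0 c hc)
      exact ⟨H.us (k : F) 0, H.us_mem_Q _ _, by rw [H.us_sq, mul_comm, hk, Units.val_mk0]⟩
  have hfixD : ∀ c : F, c ≠ 0 → ∀ x ∈ MulAction.fixedBy Ω (H.us 0 b), H.us 0 c • x = x := by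
    intro c hc x hx
    obtain ⟨u, hu, he⟩ := hsq c
    rw [he]
    exact sq_smul_eq (hD _ (hne b hb)) (hperm u hu b hb) hx
  set D := MulAction.fixedBy Ω (H.us 0 b) with hDdef
  have hDeq : ∀ c : F, c ≠ 0 → MulAction.fixedBy Ω (H.us 0 c) = D := by
    intro c hc
    refine (Set.eq_of_subset_of_subset (fun x hx => hfixD c hc x hx) fun x hx => ?_).symm
    -- reverse inclusion by symmetry
    obtain ⟨u, hu, he⟩ := hsq b
    change H.us 0 b • x = x
    rw [he]
    exact sq_smul_eq (hD _ (hne c hc)) (hperm u hu c hc) hx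
  have haD : a ∈ D := hz
  have hBperm : ∀ g ∈ H.B, ∀ x ∈ D, g • x ∈ D := by
    intro g hg x hx
    have hne' : g⁻¹ * H.us 0 b * g ≠ 1 := by
      intro h
      refine hne b hb ?_
      calc H.us 0 b = g * (g⁻¹ * H.us 0 b * g) * g⁻¹ := by group
        _ = 1 := by rw [h]; group
    have hQ : g⁻¹ * H.us 0 b * g ∈ H.Q := by
      have := H.Q_conj_mem (inv_mem hg) (H.us_mem_Q 0 b)
      rwa [inv_inv] at this
    obtain ⟨c, d, hcd⟩ := hQ
    have hc0 : c = 0 := by
      by_contra hc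
      have h1 : orderOf (g⁻¹ * H.us 0 b * g) = 2 := by
        rw [← hz2]
        exact (MulAut.conj g⁻¹).orderOf_eq (H.us 0 b) |> fun h => by simpa using h
      rw [hcd, H.orderOf_us hc] at h1
      omega
    subst hc0
    have hd0 : d ≠ 0 := fun h => hne' (by rw [hcd, h, H.us_zero])
    have h2 : H.us 0 d • x = x := by rw [← hDeq d hd0] at hx; exact hx
    change H.us 0 b • g • x = g • x
    rw [← hcd, mul_smul, mul_smul, inv_smul_eq_iff] at h2
    exact h2
  set K := MulAction.stabilizer (Sz F m) a with hKdef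
  have hTK : ∀ k : Fˣ, H.ds k ∈ K := by
    intro k
    have hodd : Odd (orderOf (H.ds k)) := by
      refine Odd.of_dvd_nat ?_ (Subgroup.orderOf_dvd_natCard H.T ⟨k, rfl⟩)
      rw [H.card_T]
      exact (H.toriOrders_coprime.1 _ (Or.inl rfl)).2
    exact odd_smul_eq (hD _ (hne b hb)) hodd (hBperm _ (H.ds_mem_B k)) haD
  have hcomm : ∀ g ∈ H.B, ∀ k : Fˣ, g * H.ds k * g⁻¹ ∈ K := by
    intro g hg k
    have hodd : Odd (orderOf (g * H.ds k * g⁻¹)) := by
      have h1 : orderOf (g * H.ds k * g⁻¹) = orderOf (H.ds k) := by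
        simpa using (MulAut.conj g).orderOf_eq (H.ds k)
      rw [h1]
      refine Odd.of_dvd_nat ?_ (Subgroup.orderOf_dvd_natCard H.T ⟨k, rfl⟩)
      rw [H.card_T]
      exact (H.toriOrders_coprime.1 _ (Or.inl rfl)).2
    exact odd_smul_eq (hD _ (hne b hb))
      hodd (hBperm _ (mul_mem (mul_mem hg (H.ds_mem_B k)) (inv_mem hg))) haD
  have hZ : ∀ d : F, H.us 0 d ∈ K := by
    intro d
    rcases eq_or_ne d 0 with rfl | hd
    · rw [H.us_zero]; exact one_mem _
    · exact hfixD d hd a haD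
  have hQK : H.Q ≤ K := by
    rintro _ ⟨c, d, rfl⟩
    obtain ⟨k, hk⟩ := H.exists_unit_ne_one
    have hk' : (k : F) + 1 ≠ 0 := fun h => hk (Units.ext (by
      rw [H.add_eq_zero_iff] at h; exact h))
    obtain ⟨a₀, rfl⟩ : ∃ a₀, c = ((k : F) + 1) * a₀ := ⟨c / ((k : F) + 1), by field_simp⟩
    have h1 : H.ds k * (H.us a₀ 0 * (H.ds k)⁻¹ * (H.us a₀ 0)⁻¹) ∈ K := by
      refine mul_mem (hTK k) ?_
      rw [show (H.ds k)⁻¹ = H.ds k⁻¹ from inv_eq_of_mul_eq_one_right (by rw [← H.ds_mul, mul_inv_cancel, H.ds_one])]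
      exact hcomm _ (H.us_mem_B a₀ 0) k⁻¹
    have h2 : H.ds k * (H.us a₀ 0 * (H.ds k)⁻¹ * (H.us a₀ 0)⁻¹) =
        H.us ((k : F) * a₀) ((k : F) * th m (k : F) * 0) * (H.us a₀ 0)⁻¹ := by
      rw [← H.ds_us_conj]; simp [mul_assoc]
    rw [h2, H.us_inv, H.us_mul, ← add_one_mul] at h1
    obtain ⟨e, h1⟩ : ∃ e, H.us (((k : F) + 1) * a₀) e ∈ K := ⟨_, h1⟩
    have h3 : ∃ e' : F, H.us (((k : F) + 1) * a₀) d = H.us (((k : F) + 1) * a₀) e * H.us 0 e' := by
      refine ⟨e + d, ?_⟩
      rw [H.us_mul, H.us_inj]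
      refine ⟨by rw [add_zero], ?_⟩
      simp only [th_zero, mul_zero, zero_mul, add_zero]
      rw [← add_assoc, H.add_self, zero_add]
    obtain ⟨e', he'⟩ := h3
    rw [he']
    exact mul_mem h1 (hZ e')
  have hBK : H.B ≤ K := by
    intro g hg
    obtain ⟨c, d, k, rfl⟩ := H.fix_inf hg
    exact mul_mem (hQK (H.us_mem_Q c d)) (hTK k)
  rcases eq_or_lt_of_le hBK with h | h
  · exact h.symm
  · exact absurd (H.isCoatom_B.2 _ h) hK

/-- Stabilisers of odd order are split tori. -/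
theorem card_stabilizer_odd (H : SzHyp F m)
    (hfix : ∀ g : Sz F m, g ≠ 1 → Nat.card (MulAction.fixedBy Ω g) ≤ 2)
    {a b : Ω} (hab : a ≠ b) {g : Sz F m} (hg : g ≠ 1) (hga : g • a = a) (hgb : g • b = b)
    (hodd : Odd (Nat.card (MulAction.stabilizer (Sz F m) a))) :
    Nat.card (MulAction.stabilizer (Sz F m) a) = 2 ^ (2 * m + 1) - 1 := by
  classical
  haveI := H.finite_Sz
  have hD : ∀ g : Sz F m, g ≠ 1 → (MulAction.fixedBy Ω g).ncard ≤ 2 := fun g hg => by
    rw [← Nat.card_coe_set_eq]; exact hfix g hg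
  set K := MulAction.stabilizer (Sz F m) a with hK
  have hnotQ : ∀ y ∈ K, y ≠ 1 → ¬ ∃ x, x * y * x⁻¹ ∈ H.Q := fun y hy hy1 =>
    H.not_conj_Q_of_coprime hy1 hodd (Subgroup.orderOf_dvd_natCard _ hy)
  have hcent : ∀ y ∈ K, y ≠ 1 → IsCyclic (Subgroup.centralizer {y}) ∧
      Nat.card (Subgroup.centralizer {y}) ∈ SzHyp.toriOrders m ∧
      (∀ w ∈ Subgroup.centralizer {y}, w ≠ 1 → Subgroup.centralizer {w} = Subgroup.centralizer {y}) ∧
      ∀ x : Ω, y • x = x → ∀ w ∈ Subgroup.centralizer {y}, w • x = x := by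
    intro y hy hy1
    obtain ⟨h1, h2, h3⟩ := H.centralizer_cases hy1 (hnotQ y hy hy1)
    refine ⟨h1, h2, h3, fun x hx w hw => ?_⟩
    refine odd_smul_eq (hD y hy1) ((H.toriOrders_coprime.1 _ h2).2.of_dvd_nat
      (Subgroup.orderOf_dvd_natCard _ hw)) ?_ (show x ∈ MulAction.fixedBy Ω y from hx)
    exact fun z hz => smul_fixed_of_commute (Subgroup.mem_centralizer_singleton_iff.1 hw) hz
  have hCle : ∀ y ∈ K, y ≠ 1 → Subgroup.centralizer {y} ≤ K := fun y hy hy1 w hw =>
    (hcent y hy hy1).2.2.2 a hy w hw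
  set U := Subgroup.centralizer {g} with hU
  have hgK : g ∈ K := hga
  obtain ⟨-, hUcard, hUTI, hUfix⟩ := hcent g hgK hg
  have hUK : U ≤ K := hCle g hgK hg
  have hgU : g ∈ U := Subgroup.mem_centralizer_singleton_iff.2 rfl
  -- the normalizer of `U` permutes `{a, b}`
  have hNperm : ∀ n ∈ Subgroup.normalizer (U : Set (Sz F m)), ∀ x ∈ ({a, b} : Set Ω),
      n • x ∈ ({a, b} : Set Ω) := by
    intro n hn x hx
    have hpair : ({a, b} : Set Ω) = MulAction.fixedBy Ω g :=
      Set.eq_of_subset_of_ncard_le (Set.insert_subset hga (Set.singleton_subset_iff.2 hgb))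
        (by rw [Set.ncard_pair hab]; exact hD g hg)
    have hw : n⁻¹ * g * n ∈ U := by
      have := (Subgroup.mem_normalizer_iff.1 (inv_mem hn) g).1 hgU
      rwa [inv_inv] at this
    have hxw : (n⁻¹ * g * n) • x = x := by
      rw [hpair] at hx
      exact hUfix x hx _ hw
    rw [mul_smul, mul_smul, inv_smul_eq_iff] at hxw
    rw [hpair]
    exact hxw
  -- odd elements of the normalizer lie in `K`
  have hNodd : ∀ n ∈ Subgroup.normalizer (U : Set (Sz F m)), n ^ 2 ∈ K := fun n hn => by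
    refine sq_smul_eq (by rw [Set.ncard_pair hab]) (hNperm n hn) (Set.mem_insert a _)
  -- `U` is not elliptic
  have helliptic : ∀ y : Sz F m, y ≠ 1 → y ^ ((2 ^ (2 * m + 1)) ^ 2 + 1) = 1 →
      Nat.card (Subgroup.normalizer ((Subgroup.centralizer {y} : Subgroup _) : Set (Sz F m))) =
        4 * Nat.card (Subgroup.centralizer {y}) := by
    intro y hy1 hy
    obtain ⟨x, x', hx, hx', ex, ex', nx, nx'⟩ := H.exists_ell_tori
    obtain ⟨hprod, -⟩ := suzuki_number_identity m
    obtain ⟨r, hr, hrd⟩ := Nat.exists_prime_and_dvd (n := orderOf y)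
      (fun h => hy1 (orderOf_eq_one_iff.1 h))
    have hrc : r ∣ Nat.card (Subgroup.centralizer {y}) :=
      hrd.trans (Subgroup.orderOf_dvd_natCard _ (Subgroup.mem_centralizer_singleton_iff.2 rfl))
    have hrN := hrd.trans (orderOf_dvd_of_pow_eq_one hy)
    rw [← hprod, hr.dvd_mul, ← ex, ← ex'] at hrN
    rcases hrN with h | h
    · obtain ⟨w, hw⟩ := H.exists_conj_of_common_prime hx.1 hx.2 hy hy1 hr h hrc
      rw [← hw, Subgroup.card_map_of_injective (MulAut.conj w).injective, ← nx,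
        ← Subgroup.map_equiv_normalizer_eq,
        Subgroup.card_map_of_injective (MulAut.conj w).injective]
    · obtain ⟨w, hw⟩ := H.exists_conj_of_common_prime hx'.1 hx'.2 hy hy1 hr h hrc
      rw [← hw, Subgroup.card_map_of_injective (MulAut.conj w).injective, ← nx',
        ← Subgroup.map_equiv_normalizer_eq,
        Subgroup.card_map_of_injective (MulAut.conj w).injective]
  have hsplit : ∃ w : Sz F m, ∀ y, y ∈ U ↔ w * y * w⁻¹ ∈ H.T := by
    rcases (H.trichotomy hg).resolve_left (hnotQ g hgK hg) with ⟨w, k, hk⟩ | hell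
    · refine ⟨w, fun y => ?_⟩
      have hk1 : k ≠ 1 := fun e => hg (conj_eq_one_iff.1 (hk.symm.trans (by rw [e, map_one])))
      rw [← H.centralizer_ds hk1, show H.ds k = w * g * w⁻¹ from hk,
        Subgroup.mem_centralizer_singleton_iff, Subgroup.mem_centralizer_singleton_iff]
      constructor
      · intro h
        calc w * y * w⁻¹ * (w * g * w⁻¹) = w * (y * g) * w⁻¹ := by group
          _ = w * (g * y) * w⁻¹ := by rw [h]
          _ = _ := by group
      · intro h
        calc y * g = w⁻¹ * (w * y * w⁻¹ * (w * g * w⁻¹)) * w := by group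
          _ = w⁻¹ * (w * g * w⁻¹ * (w * y * w⁻¹)) * w := by rw [h]
          _ = _ := by group
    · exfalso
      have := Fact.mk Nat.prime_two
      have h4 := helliptic g hg hell
      set N := Subgroup.normalizer (U : Set (Sz F m))
      have hdvd : 2 ^ 2 ∣ Nat.card N := ⟨Nat.card U, by rw [h4]; rfl⟩
      obtain ⟨R, hR⟩ := Sylow.exists_subgroup_card_pow_prime 2 hdvd
      have hRperm : ∀ y : R, ((y : N) : Sz F m) • a ∈ ({a, b} : Set Ω) := fun y =>
        hNperm _ (y : N).2 a (Set.mem_insert a _)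
      have hinj : Function.Injective fun y : R => (⟨_, hRperm y⟩ : ({a, b} : Set Ω)) := by
        intro y y' h
        have h1 : ((y : N) : Sz F m) • a = ((y' : N) : Sz F m) • a := congrArg Subtype.val h
        have h2 : ((y'⁻¹ * y : R) : N).1 ∈ K := by
          change (((y' : N) : Sz F m)⁻¹ * ((y : N) : Sz F m)) • a = a
          rw [mul_smul, h1, inv_smul_smul]
        have h3 : orderOf ((y'⁻¹ * y : R) : N).1 ∣ 2 ^ 2 := by
          rw [Subgroup.orderOf_coe, Subgroup.orderOf_coe, ← hR]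
          exact orderOf_dvd_natCard _
        have h4' := Nat.eq_one_of_dvd_coprimes (Nat.Coprime.pow_left 2 (Nat.coprime_two_left.2 hodd))
          h3 (Subgroup.orderOf_dvd_natCard _ h2)
        have h5 : y'⁻¹ * y = 1 := Subtype.ext (Subtype.ext (orderOf_eq_one_iff.1 h4'))
        exact (inv_mul_eq_one.1 h5).symm
      have := Nat.card_le_card_of_injective _ hinj
      rw [hR, Nat.card_coe_set_eq, Set.ncard_pair hab] at this
      omega
  obtain ⟨w, hw⟩ := hsplit
  have hUcard' : Nat.card U = 2 ^ (2 * m + 1) - 1 := by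
    rw [← H.card_T]
    exact Nat.card_congr ⟨fun y => ⟨w * y.1 * w⁻¹, (hw y.1).1 y.2⟩,
      fun y => ⟨w⁻¹ * y.1 * w, (hw _).2 (by convert y.2 using 1; group)⟩,
      fun y => Subtype.ext (by group), fun y => Subtype.ext (by group)⟩
  -- an odd element normalising a split torus lies in it
  have hselfN : ∀ n ∈ K, n ∈ Subgroup.normalizer (U : Set (Sz F m)) → n ∈ U := by
    intro n hn hnN
    rw [hw]
    obtain ⟨k, hk⟩ := H.exists_unit_ne_one
    set n' := w * n * w⁻¹
    have hn'T : ∀ l : Fˣ, n'⁻¹ * H.ds l * n' ∈ H.T := by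
      intro l
      have h1 : w⁻¹ * H.ds l * w ∈ U := (hw _).2 (by
        have : w * (w⁻¹ * H.ds l * w) * w⁻¹ = H.ds l := by group
        rw [this]; exact ⟨l, rfl⟩)
      have h2 := (Subgroup.mem_normalizer_iff.1 (inv_mem hnN) _).1 h1
      rw [hw] at h2
      convert h2 using 1
      simp only [n']
      group
    have hperm : ∀ x ∈ ({pinf F, pzero F} : Set (Projectivization F (Fin 4 → F))),
        n' • x ∈ ({pinf F, pzero F} : Set (Projectivization F (Fin 4 → F))) := by
      intro x hx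
      obtain ⟨l, hl⟩ := hn'T k
      have hlfix : H.ds l • x = x := by
        rcases hx with rfl | rfl
        · exact H.ds_inf l
        · exact H.ds_zero_pt l
      rw [show H.ds l = n'⁻¹ * H.ds k * n' from hl, mul_smul, mul_smul, inv_smul_eq_iff] at hlfix
      by_contra hne
      rw [Set.mem_insert_iff, Set.mem_singleton_iff, not_or] at hne
      have hxo : x ∈ suzukiOvoid F m := by
        rcases hx with rfl | rfl
        · exact inf_mem
        · exact zero_mem
      exact hk (H.ds_inj ((H.three_fix inf_mem zero_mem (SzHyp.smul_mem n' hxo) inf_ne_zero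
        (Ne.symm hne.2) (Ne.symm hne.1) (H.ds_inf k) (H.ds_zero_pt k) hlfix).trans H.ds_one.symm))
    haveI := H.fin
    have hnodd : Odd (orderOf n') := by
      have h1 : orderOf n' = orderOf n := by simpa using (MulAut.conj w).orderOf_eq n
      exact h1 ▸ hodd.of_dvd_nat (Subgroup.orderOf_dvd_natCard _ hn)
    have hpair : ({pinf F, pzero F} : Set (Projectivization F (Fin 4 → F))).ncard ≤ 2 := by
      rw [Set.ncard_pair inf_ne_zero]
    obtain ⟨l, hl⟩ := H.fix_both (odd_smul_eq hpair hnodd hperm (Set.mem_insert _ _))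
      (odd_smul_eq hpair hnodd hperm (Set.mem_insert_of_mem _ rfl))
    exact ⟨l, hl.symm⟩
  by_contra hne
  have hUne : U ≠ K := fun h => hne (by rw [← h, hUcard'])
  have hFC : IsFrobeniusComplement (U.subgroupOf K) := by
    refine ⟨?_, ?_, fun n hn => ?_⟩
    · intro h
      rw [Subgroup.subgroupOf_eq_bot, disjoint_iff, inf_eq_left.2 hUK] at h
      exact hg (Subgroup.mem_bot.1 (h ▸ hgU))
    · intro h
      exact hUne (le_antisymm hUK (Subgroup.subgroupOf_eq_top.1 h))
    · rw [Subgroup.eq_bot_iff_forall]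
      rintro y ⟨hy1, hy2⟩
      obtain ⟨y', hy', rfl⟩ := hy2
      by_contra hy0
      refine hn (hselfN n.1 n.2 ?_)
      have hC1 : Subgroup.centralizer {(n.1 : Sz F m) * y'.1 * n.1⁻¹} = U := by
        refine hUTI _ hy1 fun h => hy0 (Subtype.ext ?_)
        exact h
      have hC2 : Subgroup.centralizer {y'.1} = U := by
        refine hUTI _ hy' fun h => hy0 ?_
        rw [show y' = 1 from Subtype.ext h]
        exact map_one _
      rw [← map_conj_centralizer, hC2] at hC1
      rw [Subgroup.mem_normalizer_iff_map_conj_eq]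
      exact hC1
  obtain ⟨M, -, hMn, hMc, hMnil⟩ := Cfsg.Agent.H21.exists_kernel_nilpotent hFC
  haveI := hMn
  haveI := hMnil
  have hMbot : M ≠ ⊥ := by
    rintro rfl
    exact hUne (le_antisymm hUK (Subgroup.subgroupOf_eq_top.1 (Subgroup.isComplement'_bot_left.1 hMc)))
  haveI : Nontrivial M := (Subgroup.nontrivial_iff_ne_bot M).2 hMbot
  haveI : Nontrivial (Subgroup.center M) :=
    (Subgroup.nontrivial_iff_ne_bot _).2 (Group.IsNilpotent.center_ne_bot M)
  obtain ⟨⟨y, hy⟩, hy1⟩ := exists_ne (1 : Subgroup.center M)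
  have hy0 : (y.1.1 : Sz F m) ≠ 1 := fun h => hy1 (Subtype.ext (Subtype.ext (Subtype.ext h)))
  set U' := Subgroup.centralizer {(y.1.1 : Sz F m)} with hU'
  obtain ⟨hU'cyc, hU'card, hU'TI, -⟩ := hcent _ y.1.2 hy0
  have hU'K : U' ≤ K := hCle _ y.1.2 hy0
  have hMU' : ∀ z ∈ M, (z : Sz F m) ∈ U' := fun z hz =>
    Subgroup.mem_centralizer_singleton_iff.2
      (congrArg (fun t : M => t.1.1) (Subgroup.mem_center_iff.1 hy ⟨z, hz⟩))
  have hdisj : ∀ u ∈ U, u ∈ U' → u = 1 := by
    intro u hu hu'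
    by_contra hu1
    have heq : U' = U := (hU'TI u hu' hu1).symm.trans (hUTI u hu hu1)
    have hMle : M ≤ U.subgroupOf K := fun z hz => Subgroup.mem_subgroupOf.2 (heq ▸ hMU' z hz)
    exact hMbot (le_bot_iff.1 (hMc.disjoint le_rfl hMle))
  -- `U'` is the kernel
  have hMU'' : ∀ z : K, (z : Sz F m) ∈ U' → z ∈ M := by
    intro z hz
    obtain ⟨⟨⟨x, hx⟩, ⟨v, hv⟩⟩, hxv⟩ := hMc.2 z
    have hxv' : x * v = z := hxv
    have hv' : (v : Sz F m) ∈ U' := by
      have : (v : Sz F m) = (x : Sz F m)⁻¹ * (z : Sz F m) := by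
        rw [← hxv']; simp
      rw [this]
      exact mul_mem (inv_mem (hMU' x hx)) hz
    have hv1 : v = 1 := Subtype.ext (hdisj _ hv hv')
    rw [← hxv', hv1, mul_one]
    exact hx
  have hU'norm : ∀ u ∈ U, u ∈ Subgroup.normalizer (U' : Set (Sz F m)) := by
    intro u hu
    rw [Subgroup.mem_normalizer_iff]
    intro x
    constructor
    · intro hx
      exact hMU' _ (hMn.conj_mem _ (hMU'' ⟨x, hU'K hx⟩ hx) ⟨u, hUK hu⟩)
    · intro hx
      have h1 := hMU' _ (hMn.conj_mem _ (hMU'' ⟨_, hU'K hx⟩ hx) (⟨u, hUK hu⟩ : K)⁻¹)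
      have h2 : x = u⁻¹ * (u * x * u⁻¹) * u⁻¹⁻¹ := by group
      rw [h2]
      exact h1
  rcases (H.trichotomy hy0).resolve_left (hnotQ _ y.1.2 hy0) with ⟨w', l, hl⟩ | hell
  · -- split torus: `U` would lie in `U'`
    have hl1 : l ≠ 1 := fun e => hy0 (conj_eq_one_iff.1 (hl.symm.trans (by rw [e, map_one])))
    have hU'T : U'.map (MulAut.conj w').toMonoidHom = H.T := by
      rw [map_conj_centralizer, ← H.centralizer_ds hl1, show H.ds l = w' * y.1.1 * w'⁻¹ from hl]
    obtain ⟨k, hk⟩ := H.exists_unit_ne_one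
    have hUU' : U ≤ U' := by
      intro u hu
      set n' := w' * u * w'⁻¹
      have hn'N : n' ∈ Subgroup.normalizer (H.T : Set (Sz F m)) := by
        rw [← hU'T, ← Subgroup.map_equiv_normalizer_eq]
        exact ⟨u, hU'norm u hu, rfl⟩
      have hperm : ∀ x ∈ ({pinf F, pzero F} : Set (Projectivization F (Fin 4 → F))),
          n' • x ∈ ({pinf F, pzero F} : Set (Projectivization F (Fin 4 → F))) := by
        intro x hx
        obtain ⟨j, hj⟩ := (Subgroup.mem_normalizer_iff.1 (inv_mem hn'N) (H.ds k)).1 ⟨k, rfl⟩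
        have hjfix : H.ds j • x = x := by
          rcases hx with rfl | rfl
          · exact H.ds_inf j
          · exact H.ds_zero_pt j
        rw [show H.ds j = n'⁻¹ * H.ds k * n'⁻¹⁻¹ from hj, inv_inv, mul_smul, mul_smul,
          inv_smul_eq_iff] at hjfix
        by_contra hne'
        rw [Set.mem_insert_iff, Set.mem_singleton_iff, not_or] at hne'
        have hxo : x ∈ suzukiOvoid F m := by
          rcases hx with rfl | rfl
          · exact inf_mem
          · exact zero_mem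
        exact hk (H.ds_inj ((H.three_fix inf_mem zero_mem (SzHyp.smul_mem n' hxo) inf_ne_zero
          (Ne.symm hne'.2) (Ne.symm hne'.1) (H.ds_inf k) (H.ds_zero_pt k) hjfix).trans
            H.ds_one.symm))
      haveI := H.fin
      have hnodd : Odd (orderOf n') := by
        have h1 : orderOf n' = orderOf u := by simpa using (MulAut.conj w').orderOf_eq u
        exact h1 ▸ hodd.of_dvd_nat (Subgroup.orderOf_dvd_natCard _ (hUK hu))
      have hpair : ({pinf F, pzero F} : Set (Projectivization F (Fin 4 → F))).ncard ≤ 2 := by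
        rw [Set.ncard_pair inf_ne_zero]
      obtain ⟨j, hj⟩ := H.fix_both (odd_smul_eq hpair hnodd hperm (Set.mem_insert _ _))
        (odd_smul_eq hpair hnodd hperm (Set.mem_insert_of_mem _ rfl))
      have hmem : n' ∈ U'.map (MulAut.conj w').toMonoidHom := hU'T ▸ ⟨j, hj.symm⟩
      obtain ⟨u', hu', he⟩ := hmem
      exact ((MulAut.conj w').injective he) ▸ hu'
    exact hg (hdisj g hgU (hUU' hgU))
  · -- elliptic torus: `|U|` would divide `4 |U'|`
    have h4 := helliptic _ hy0 hell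
    have hdvd : Nat.card U ∣ 4 * Nat.card U' := h4 ▸ Subgroup.card_dvd_of_le hU'norm
    have hne' : Nat.card U' ≠ Nat.card U := by
      intro e
      obtain ⟨r, hr, hrd⟩ := Nat.exists_prime_and_dvd (n := orderOf (y.1.1 : Sz F m))
        (fun h => hy0 (orderOf_eq_one_iff.1 h))
      have h1 : r ∣ 2 ^ (2 * m + 1) - 1 := hUcard' ▸ e ▸ hrd.trans
        (Subgroup.orderOf_dvd_natCard _ (Subgroup.mem_centralizer_singleton_iff.2 rfl))
      have h2 := hrd.trans (orderOf_dvd_of_pow_eq_one hell)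
      exact hr.one_lt.ne' (Nat.eq_one_of_dvd_coprimes
        (H.coprime_facts.1.of_dvd_right (dvd_mul_left _ _)) h1 h2)
    have hcop : Nat.Coprime (Nat.card U) (4 * Nat.card U') :=
      Nat.Coprime.mul_right ((H.toriOrders_coprime.1 _ hUcard).2.coprime_two_right.pow_right 2)
        (H.toriOrders_coprime.2 _ hUcard _ hU'card (Ne.symm hne'))
    have := (H.toriOrders_coprime.1 _ hUcard).1
    have h1 : Nat.card U = 1 := Nat.eq_one_of_dvd_coprimes hcop dvd_rfl hdvd
    exact this.ne' h1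

/-- The two actions of a Suzuki group with fixity two. -/
theorem suzuki_fixity_two (H : SzHyp F m) [IsPretransitive (Sz F m) Ω]
    (hfix : ∀ g : Sz F m, g ≠ 1 → Nat.card (MulAction.fixedBy Ω g) ≤ 2)
    (hex : ∃ g : Sz F m, g ≠ 1 ∧ Nat.card (MulAction.fixedBy Ω g) = 2) :
    (Nat.card Ω = (2 ^ (2 * m + 1)) ^ 2 + 1 ∧ IsMultiplyPretransitive (Sz F m) Ω 2) ∨
    (Nat.card Ω = (2 ^ (2 * m + 1)) ^ 2 * ((2 ^ (2 * m + 1)) ^ 2 + 1) ∧
      ∀ α : Ω, Nat.card (MulAction.stabilizer (Sz F m) α) = 2 ^ (2 * m + 1) - 1) := by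
  haveI := H.finite_Sz
  obtain ⟨g, hg, hg2⟩ := hex
  rw [Nat.card_coe_set_eq] at hg2
  obtain ⟨a, b, hab, hset⟩ := Set.ncard_eq_two.1 hg2
  have hga : g • a = a := (hset ▸ Set.mem_insert a _ : a ∈ MulAction.fixedBy Ω g)
  have hgb : g • b = b := (hset ▸ Set.mem_insert_of_mem a rfl : b ∈ MulAction.fixedBy Ω g)
  by_cases heven : Odd (Nat.card (MulAction.stabilizer (Sz F m) a))
  · refine Or.inr ?_
    have hK := card_stabilizer_odd H hfix hab hg hga hgb heven
    have hall : ∀ α : Ω, Nat.card (MulAction.stabilizer (Sz F m) α) = 2 ^ (2 * m + 1) - 1 := by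
      intro α
      obtain ⟨x, rfl⟩ := MulAction.exists_smul_eq (Sz F m) a α
      rw [MulAction.stabilizer_smul_eq_stabilizer_map_conj,
        Subgroup.card_map_of_injective (MulAut.conj x).injective, hK]
    refine ⟨?_, hall⟩
    have h1 := (MulAction.stabilizer (Sz F m) a).card_mul_index
    rw [MulAction.index_stabilizer_of_transitive, hK, H.card_Sz, mul_comm] at h1
    have h3 : 1 < 2 ^ (2 * m + 1) := Nat.one_lt_two_pow (by omega)
    exact Nat.eq_of_mul_eq_mul_right (by omega) h1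
  refine Or.inl ?_
  haveI := Fact.mk Nat.prime_two
  obtain ⟨⟨z, hz⟩, hz2⟩ := exists_prime_orderOf_dvd_card' 2
    (show 2 ∣ Nat.card (MulAction.stabilizer (Sz F m) a) from
      even_iff_two_dvd.1 (Nat.not_odd_iff_even.1 heven))
  rw [Subgroup.orderOf_mk] at hz2
  obtain ⟨x, hx⟩ := H.exists_conj_mem_Q (g := z) ⟨1, by rw [pow_one, ← hz2, pow_orderOf_eq_one]⟩
  have hne : MulAction.stabilizer (Sz F m) (x • a) ≠ ⊤ := by
    intro h
    obtain ⟨y, hy⟩ := MulAction.exists_smul_eq (Sz F m) (x • a) (x • b)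
    have : y • (x • a) = x • a := (h ▸ Subgroup.mem_top y : y ∈ MulAction.stabilizer (Sz F m) (x • a))
    exact hab (MulAction.injective x (this.symm.trans hy))
  have hB := stabilizer_eq_B H hfix hne (z := x * z * x⁻¹)
    (by rw [MulAction.stabilizer_smul_eq_stabilizer_map_conj]; exact ⟨z, hz, rfl⟩)
    (by rw [← hz2]; simpa using (MulAut.conj x).orderOf_eq z) hx
  refine ⟨?_, ?_⟩
  · rw [← MulAction.index_stabilizer_of_transitive (Sz F m) (x • a), hB, H.index_B]
  · have hlift : ∀ g g' : Sz F m, g • pinf F = g' • pinf F ↔ g • (x • a) = g' • (x • a) := by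
      intro g g'
      rw [← inv_smul_eq_iff, ← mul_smul, ← inv_smul_eq_iff, ← mul_smul,
        ← MulAction.mem_stabilizer_iff, ← MulAction.mem_stabilizer_iff, hB]
    have h2 := H.two_transitive
    rw [is_two_pretransitive_iff] at h2 ⊢
    intro p r s t hpr hst
    obtain ⟨gp, rfl⟩ := MulAction.exists_smul_eq (Sz F m) (x • a) p
    obtain ⟨gr, rfl⟩ := MulAction.exists_smul_eq (Sz F m) (x • a) r
    obtain ⟨gs, rfl⟩ := MulAction.exists_smul_eq (Sz F m) (x • a) s
    obtain ⟨gt, rfl⟩ := MulAction.exists_smul_eq (Sz F m) (x • a) t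
    obtain ⟨g, hg1, hg2'⟩ := h2
      (a := (⟨gp • pinf F, SzHyp.smul_mem gp inf_mem⟩ : suzukiOvoid F m))
      (b := ⟨gr • pinf F, SzHyp.smul_mem gr inf_mem⟩) (c := ⟨gs • pinf F, SzHyp.smul_mem gs inf_mem⟩)
      (d := ⟨gt • pinf F, SzHyp.smul_mem gt inf_mem⟩)
      (fun e => hpr ((hlift _ _).1 (congrArg Subtype.val e)))
      (fun e => hst ((hlift _ _).1 (congrArg Subtype.val e)))
    refine ⟨g, ?_, ?_⟩
    · rw [← mul_smul, ← hlift, mul_smul]; exact congrArg Subtype.val hg1
    · rw [← mul_smul, ← hlift, mul_smul]; exact congrArg Subtype.val hg2'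

end

end Cfsg.Agent.H78
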